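import Mathlib
import Cfsg.Agent.H807.WfE6.Abs
import Cfsg.Agent.Nodes.NormX
import Cfsg.Agent.Nodes.ClsNorm
import Cfsg.Agent.H862.T5.LevPair
import Cfsg.Agent.H84.Wf.Red

/-!
# The finite part of the rows `E₆(q)`, `²E₆(q)` of S3826: groups with a root group datum

`a0` a dominant root, `orth a0 = range f`:
* `mem_LJ` : `N(X a0) ∩ N(X (-a0)) ≤ LJ`;
* `exists_mul` : `LJ = T HL`;
* `wf_rgd` : the row.
-/

set_option autoImplicit false
set_option linter.unusedSectionVars false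

namespace Cfsg.Agent.H807.WfE6.Fin

universe u v w

open CoxeterSystem Cfsg.Agent.ChevalleyStructure.CoxeterGeom Cfsg.Agent.Tits.Roots Cfsg.Agent.Tits.Core
  Cfsg.Agent.Tits.RootComb Cfsg.Agent.Tits.Exchange Cfsg.Agent.Nodes.Reps Cfsg.Agent.Nodes.BNOf
  Cfsg.Agent.Nodes.StabComb Cfsg.Agent.Nodes.Bruhat Cfsg.Agent.Nodes.OppDec Cfsg.Agent.Nodes.LeviDec
  Cfsg.Agent.Nodes.RGDLib Cfsg.Agent.Nodes.SubComb Cfsg.Agent.Nodes.Sub Cfsg.Agent.GenExc
  Cfsg.Agent.Nodes.NormX Cfsg.Agent.Nodes.ClsNorm Cfsg.Agent.H862.T5.LevPair Cfsg.Agent.H533.T5 Cfsg.Agent.H533.Wf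
open scoped commutatorElement

section Rgd

variable {I W Y : Type*} [Fintype I] [DecidableEq I] [Group W] [Group Y] {M : CoxeterMatrix I}
  {cs : CoxeterSystem M W} {A : I → I → ℤ} {h : IsCartan M A} {p : ℕ} {T : Subgroup Y} {n : I → Y}
  {X : (I → ℤ) → Subgroup Y} {J : Type*} [Fintype J] [DecidableEq J] (f : J ↪ I)
  {a0 : I → ℤ}

/-- a root is mapped to its negative -/
theorem exists_neg (cs : CoxeterSystem M W) (h : IsCartan M A) {a : I → ℤ} (ha : IsRoot cs h a) :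
    ∃ w : W, rep cs h w a = -a := by
  obtain ⟨w, i, rfl⟩ := ha
  refine ⟨w * cs.simple i * w⁻¹, ?_⟩
  rw [rep_mul_apply, rep_mul_apply, rep_inv_apply, rep_simple_sr, map_neg]

variable (R : RGD cs h p T n X)

include R

/-- **The normaliser of an opposite pair.** -/
theorem mem_LJ [Finite W] (hr : IsRoot cs h a0) (hd : Dom A a0)
    (hB : RGD.B cs h T X ≤ Subgroup.normalizer (X a0 : Set Y)) {c : Y} (hc : c ∈ GG cs h T X)
    (h1 : c ∈ Subgroup.normalizer (X a0 : Set Y)) (h2 : c ∈ Subgroup.normalizer (X (-a0) : Set Y)) :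
    c ∈ LJ cs h T X (orth cs h a0) := by
  have := Fintype.ofFinite W
  have L := long_X R hr hd hB
  obtain ⟨w, hw⟩ := exists_neg cs h hr
  obtain ⟨k, hk⟩ := exists_rp cs R.nsys w
  rw [← L.normalizer_inf_opp hk hw]
  refine ⟨⟨h1, ?_⟩, hc⟩
  rw [R.conj_rp hk hr, hw]
  exact h2

theorem T_norm_HL {t : Y} (ht : t ∈ T) : t ∈ Subgroup.normalizer (HL cs h X f : Set Y) := by
  rw [mem_normalizer_iff_cj]
  unfold HL
  rw [RGD.cj_Sup]
  unfold RGD.Sup
  congr 1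
  funext x
  exact R.tor _ x.2.1 t ht

/-- `LJ = T HL` -/
theorem exists_mul (hf : orth cs h a0 = Set.range f) {c : Y} (hc : c ∈ LJ cs h T X (orth cs h a0)) :
    ∃ t ∈ T, ∃ l ∈ HL cs h X f, c = t * l := by
  rw [hf] at hc
  unfold LJ at hc
  rw [← LR_eq] at hc
  have h2 : c ∈ ((T ⊔ HL cs h X f : Subgroup Y) : Set Y) := hc
  rw [Subgroup.coe_mul_of_left_le_normalizer_right _ _ (fun t ht => T_norm_HL f R ht)] at h2
  obtain ⟨t, ht, l, hl, rfl⟩ := h2
  exact ⟨t, ht, l, hl, rfl⟩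

omit R in
theorem mem_normalizer_of_comm {H : Subgroup Y} {c : Y} (h1 : ∀ x ∈ H, c * x = x * c) :
    c ∈ Subgroup.normalizer (H : Set Y) := by
  rw [Subgroup.mem_normalizer_iff]
  intro x
  constructor
  · intro hx
    rw [h1 x hx]
    have : x * c * c⁻¹ = x := by group
    rwa [this]
  · intro hx
    have h2 := h1 _ hx
    have h3 : x = c * x * c⁻¹ := by
      have h4 : c * (c * x * c⁻¹) * c⁻¹ = (c * x * c⁻¹) * c * c⁻¹ := by rw [h2]
      have h5 : c * x * c⁻¹ = x := by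
        have h6 : c⁻¹ * (c * (c * x * c⁻¹) * c⁻¹) * c = c⁻¹ * ((c * x * c⁻¹) * c * c⁻¹) * c := by rw [h4]
        have h7 : c⁻¹ * (c * (c * x * c⁻¹) * c⁻¹) * c = c * x * c⁻¹ := by group
        have h8 : c⁻¹ * ((c * x * c⁻¹) * c * c⁻¹) * c = x := by group
        rw [h7, h8] at h6
        exact h6
      exact h5.symm
    rw [h3]
    exact hx

end Rgd

section Row

variable {I W : Type*} {S : Type v} [Fintype I] [DecidableEq I] [Group W] [Group S] {M : CoxeterMatrix I}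
  {cs : CoxeterSystem M W} {A : I → I → ℤ} {h : IsCartan M A} {r : ℕ} {T : Subgroup S} {n : I → S}
  {X : (I → ℤ) → Subgroup S} {J : Type*} [Fintype J] [DecidableEq J] (f : J ↪ I)
  {a0 : I → ℤ}

/-- conjugates of `HL` : `X c ≤ k HL k⁻¹` if `c` is orthogonal to `w a0` -/
theorem X_le_cj [Fintype W] (R : RGD cs h r T n X) (hf : orth cs h a0 = Set.range f) (hd : Dom A a0) {w : W} {k : S}
    (hk : Rp cs R.nsys w k) {c : I → ℤ} (hc : IsRoot cs h c) (h0 : form cs h c (rep cs h w a0) = 0) :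
    X c ≤ cj k (HL cs h X f) := by
  have h1 : rep cs h w⁻¹ c ∈ LR cs h f := by
    rw [LR_eq, ← hf, mem_RootsJ_orth_iff hd (hc.act w⁻¹)]
    have h2 := form_rep cs h w (x := rep cs h w⁻¹ c) (y := a0)
    rw [← h2, rep_apply_inv]
    exact h0
  have h2 := cj_mono k (X_le_HL f (X := X) h1)
  rw [R.conj_rp hk (hc.act w⁻¹), rep_apply_inv] at h2
  exact h2

/-- **The row.** -/
theorem wf_rgd {p : ℕ} [Fact p.Prime] [Fintype W] [Finite S] [IsSimpleGroup S] (R : RGD cs h r T n X)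
    (hG : GG cs h T X = ⊤) (hTT : ∀ s ∈ T, ∀ t ∈ T, s * t = t * s)
    (hr : IsRoot cs h a0) (hd : Dom A a0) (hB : RGD.B cs h T X ≤ Subgroup.normalizer (X a0 : Set S))
    (hf : orth cs h a0 = Set.range f) (hL : QS (HL cs h X f)) (hne : HL cs h X f ≠ ⊤)
    {R' : Subgroup S} (h0 : X a0 ⊔ X (-a0) ≤ R') (hLR : ∀ l ∈ HL cs h X f, ∀ x ∈ R', l * x = x * l)
    {w : W} (hw : rep cs h w a0 ∈ LR cs h f)
    (hgen : ∀ c : MulAut S, (∀ x ∈ LR cs h f, ∀ l ∈ X x, c l = l) →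
      (∀ x, IsRoot cs h x → form cs h x (rep cs h w a0) = 0 → ∀ l ∈ X x, c l = l) → c = 1)
    (hred : ∀ c : MulAut S, orderOf c = p → ∃ g : S, ∀ s ∈ R', (MulAut.conj g * c * (MulAut.conj g)⁻¹) s ∈ R') :
    WfRow.{u, v} p S := by
  obtain ⟨k, hk⟩ := exists_rp cs R.nsys w
  refine Abs.wf_core (n := k) h0 hL hne hLR (T := T) (fun t ht l hl => ?_) hTT (fun s hs => ?_) (fun x hx => ?_)
    (fun c h1 h2 => ?_) hred
  · exact (Subgroup.mem_normalizer_iff.1 (T_norm_HL f R ht) l).1 hl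
  · refine exists_mul f R hf (mem_LJ R hr hd hB (by rw [hG]; exact Subgroup.mem_top s)
      (mem_normalizer_of_comm fun x hx => hs x (Subgroup.mem_sup_left hx))
      (mem_normalizer_of_comm fun x hx => hs x (Subgroup.mem_sup_right hx)))
  · -- `k X_{±a0} k⁻¹ ≤ HL`
    have h1 : cj k (X a0 ⊔ X (-a0)) ≤ HL cs h X f := by
      rw [cj_sup, R.conj_rp hk hr, R.conj_rp hk hr.neg, map_neg]
      exact sup_le (X_le_HL f hw) (X_le_HL f (LR_neg f hw))
    exact h1 (conj_mem_cj.2 hx)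
  · refine hgen c (fun x hx l hl => h1 l (X_le_HL f hx hl)) (fun x hx hx0 l hl => ?_)
    have h3 := X_le_cj f R hf hd hk hx hx0 hl
    obtain ⟨l', hl', rfl⟩ := h3
    exact h2 l' hl'

end Row

end Cfsg.Agent.H807.WfE6.Fin
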